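import Cfsg.Agent.H412.Tc.Basic

/-!
# Three-closures of solvable groups: the linear setting

`scal c` is multiplication by the scalar `c`, `Heis` a group of Heisenberg type acting
`K`-linearly on `V`, `SetA`/`SetB` the situations reached in the main proof.
-/

set_option autoImplicit false

namespace Cfsg.Agent.H412.Tc

open Equiv

universe u

section

variable (K V : Type*) [Field K] [AddCommGroup V] [Module K V]

/-- Multiplication by a nonzero scalar. -/
def scal : Kˣ →* GV V := Units.map (Module.toAddMonoidEnd K V).toMonoidHom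

/-- A group of Heisenberg type: it contains the scalars, has exponent `r` and scalar
commutators modulo them, and its centre consists of scalars. -/
structure Heis (r : ℕ) (B : Subgroup (GV V)) : Prop where
  prime : r.Prime
  lin : ∀ b ∈ B, ∀ (c : K) (v : V), b • c • v = c • b • v
  scal_mem : ∀ c : Kˣ, scal K V c ∈ B
  pow : ∀ b ∈ B, ∃ c : Kˣ, b ^ r = scal K V c
  comm : ∀ a ∈ B, ∀ b ∈ B, ∃ c : Kˣ, a * b = scal K V c * (b * a)
  cent : ∀ a ∈ B, (∀ b ∈ B, a * b = b * a) → ∃ c : Kˣ, a = scal K V c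

end

theorem scal_smul {K V : Type*} [Field K] [AddCommGroup V] [Module K V] (c : Kˣ) (v : V) :
    scal K V c • v = (c : K) • v := rfl

/-- An automorphism which is semilinear with respect to some automorphism of `K`. -/
def Semi (K : Type*) {V : Type*} [Field K] [AddCommGroup V] [Module K V] (g : GV V) : Prop :=
  ∃ σ : K ≃+* K, ∀ (c : K) (v : V), g • c • v = σ c • g • v

/-- An irreducible group of automorphisms of `V`. -/
def Irr {V : Type*} [AddCommGroup V] (A : Subgroup (GV V)) : Prop :=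
  ∀ U : AddSubgroup V, (∀ g ∈ A, ∀ u ∈ U, g • u ∈ U) → U = ⊥ ∨ U = ⊤

/-- `K` is a maximal field (even commutative ring) of endomorphisms normalized by the
solvable irreducible semilinear group `A`. -/
structure SetA (K V : Type u) [Field K] [Finite K] [AddCommGroup V] [Finite V] [Module K V]
    (A : Subgroup (GV V)) : Prop where
  ih : IH.{u} (Nat.card V)
  card : 3 ≤ Nat.card V
  solv : Group.IsSolvable A
  irr : Irr A
  semi : ∀ g ∈ A, Semi K g
  scal_mem : ∀ c : Kˣ, scal K V c ∈ A
  max : ∀ R : Subring (AddMonoid.End V), (∀ a ∈ R, ∀ b ∈ R, a * b = b * a) →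
    (∀ g ∈ A, ∀ r ∈ R, (g : AddMonoid.End V) * r * ((g⁻¹ : GV V) : AddMonoid.End V) ∈ R) →
    (∀ c : K, Module.toAddMonoidEnd K V c ∈ R) →
    ∀ r ∈ R, ∃ c : K, r = Module.toAddMonoidEnd K V c

/-- The main case: `B / Kˣ` is a minimal normal subgroup of `A / Kˣ` consisting of
`K`-linear maps, and is of Heisenberg type. -/
structure SetB (K V : Type u) [Field K] [Finite K] [AddCommGroup V] [Finite V] [Module K V]
    (A B : Subgroup (GV V)) (r : ℕ) : Prop extends SetA K V A where
  heis : Heis K V r B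
  le : B ≤ A
  norm : ∀ g ∈ A, ∀ b ∈ B, g * b * g⁻¹ ∈ B
  min : ∀ N : Subgroup (GV V), (∀ c : Kˣ, scal K V c ∈ N) → N ≤ B →
    (∀ g ∈ A, ∀ b ∈ N, g * b * g⁻¹ ∈ N) → (∀ b ∈ N, ∃ c : Kˣ, b = scal K V c) ∨ B ≤ N
  ns : ∃ b ∈ B, ∀ c : Kˣ, b ≠ scal K V c

end Cfsg.Agent.H412.Tc
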