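import Cfsg.Agent.H412.Tc.Defs

/-!
# Groups of Heisenberg type: basic facts
-/

set_option autoImplicit false

namespace Cfsg.Agent.H412.Tc

variable {K V : Type*} [Field K] [AddCommGroup V] [Module K V]

theorem GV_ext {a b : GV V} (h : ∀ v : V, a • v = b • v) : a = b :=
  Units.ext (AddMonoidHom.ext h)

/-- `K`-linear automorphisms. -/
def Lin (K : Type*) {V : Type*} [Field K] [AddCommGroup V] [Module K V] (g : GV V) : Prop :=
  ∀ (c : K) (v : V), g • c • v = c • g • v

theorem Lin.mul {g h : GV V} (hg : Lin K g) (hh : Lin K h) : Lin K (g * h) := fun c v => by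
  rw [mul_smul, hh, hg, mul_smul]

theorem Lin.inv {g : GV V} (hg : Lin K g) : Lin K g⁻¹ := fun c v => by
  rw [inv_smul_eq_iff, hg, smul_inv_smul]

theorem Lin.one : Lin K (1 : GV V) := fun c v => by rw [one_smul, one_smul]

theorem lin_scal (c : Kˣ) : Lin K (scal K V c) := fun d v => by
  rw [scal_smul, scal_smul, smul_smul, smul_smul, mul_comm]

theorem Lin.scal_comm {g : GV V} (hg : Lin K g) (c : Kˣ) :
    g * scal K V c = scal K V c * g := GV_ext fun v => by
  rw [mul_smul, mul_smul, scal_smul, scal_smul, hg]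

theorem Lin.scal_commute {g : GV V} (hg : Lin K g) (c : Kˣ) :
    Commute g (scal K V c) := hg.scal_comm c

theorem scal_inj [Nontrivial V] : Function.Injective (scal K V) := by
  intro c d h
  obtain ⟨v, hv⟩ := exists_ne (0 : V)
  have h1 : scal K V c • v = scal K V d • v := by rw [h]
  rw [scal_smul, scal_smul] at h1
  exact Units.ext (smul_left_injective K hv h1)

theorem scal_eq_one [Nontrivial V] {c : Kˣ} (h : scal K V c = 1) : c = 1 :=
  scal_inj (V := V) (by rw [h, map_one])

/-- `b` has `v` as an eigenvector. -/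
def Eig (K : Type*) {V : Type*} [Field K] [AddCommGroup V] [Module K V] (b : GV V) (v : V) :
    Prop := ∃ c : Kˣ, b • v = (c : K) • v

theorem unit_of_smul {b : GV V} {v : V} (hv : v ≠ 0) {c : K} (h : b • v = c • v) :
    ∃ c' : Kˣ, b • v = (c' : K) • v := by
  have hc : c ≠ 0 := by
    rintro rfl
    rw [zero_smul] at h
    exact hv ((smul_eq_zero_iff_eq b).1 h)
  exact ⟨Units.mk0 c hc, h⟩

theorem Lin.pow {g : GV V} (hg : Lin K g) (n : ℕ) : Lin K (g ^ n) := by
  induction n with
  | zero => simpa using Lin.one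
  | succ n ih => rw [pow_succ]; exact ih.mul hg

section Comm

/-- Commutation up to the scalar `c`. -/
def CC (c : Kˣ) (a b : GV V) : Prop := a * b = scal K V c * (b * a)

variable {a b a' b' : GV V} {c d : Kˣ}

theorem CC.symm (h : CC c a b) : CC c⁻¹ b a := by
  unfold CC at *
  rw [h, ← mul_assoc, ← map_mul, inv_mul_cancel, map_one, one_mul]

theorem CC.mul_right (hb : Lin K b) (h : CC c a b) (h' : CC d a b') :
    CC (c * d) a (b * b') := by
  unfold CC at *
  rw [← mul_assoc, h, mul_assoc, mul_assoc, h', map_mul, ← mul_assoc b, hb.scal_comm]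
  simp only [mul_assoc]

theorem CC.mul_left (ha : Lin K a) (h : CC c a b) (h' : CC d a' b) :
    CC (c * d) (a * a') b := by
  unfold CC at *
  rw [mul_assoc, h', ← mul_assoc, ha.scal_comm, mul_assoc, ← mul_assoc a, h, mul_comm c d,
    map_mul]
  simp only [mul_assoc]

theorem CC.pow_right (hb : Lin K b) (h : CC c a b) (n : ℕ) : CC (c ^ n) a (b ^ n) := by
  induction n with
  | zero => unfold CC; simp
  | succ n ih =>
    rw [pow_succ', pow_succ']
    exact CC.mul_right hb h ih

theorem CC.pow_left (ha : Lin K a) (h : CC c a b) (n : ℕ) : CC (c ^ n) (a ^ n) b := by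
  induction n with
  | zero => unfold CC; simp
  | succ n ih =>
    rw [pow_succ', pow_succ']
    exact CC.mul_left ha h ih

theorem CC.smul (h : CC c a b) (v : V) : a • b • v = (c : K) • b • a • v := by
  rw [← mul_smul, h, mul_smul, mul_smul, scal_smul]

theorem CC.unique [Nontrivial V] (h : CC c a b) (h' : CC d a b) : c = d := by
  unfold CC at *
  rw [h] at h'
  exact scal_inj (V := V) (mul_right_cancel h')

theorem CC.scal_right (ha : Lin K a) (e : Kˣ) : CC (1 : Kˣ) a (scal K V e) := by
  unfold CC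
  rw [map_one, one_mul, ha.scal_comm]

theorem CC.scal_left (ha : Lin K a) (e : Kˣ) : CC (1 : Kˣ) (scal K V e) a := by
  unfold CC
  rw [map_one, one_mul, ha.scal_comm]

theorem cc_one_iff : CC (1 : Kˣ) a b ↔ a * b = b * a := by
  unfold CC; rw [map_one, one_mul]

/-- Powers of a product of elements commuting up to a scalar. -/
theorem CC.mul_pow (ha : Lin K a) (hb : Lin K b) (h : CC c b a) (n : ℕ) :
    (a * b) ^ n = scal K V (c ^ (n * (n - 1) / 2)) * (a ^ n * b ^ n) := by
  induction n with
  | zero => simp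
  | succ n ih =>
    have h1 : CC (c ^ n) (b ^ n) a := h.pow_left hb n
    unfold CC at h1
    have h2 : (n + 1) * (n + 1 - 1) / 2 = n * (n - 1) / 2 + n := by
      have : (n + 1) * (n + 1 - 1) = n * (n - 1) + 2 * n := by
        cases n with
        | zero => rfl
        | succ m => simp; ring
      rw [this, Nat.add_mul_div_left _ _ (by norm_num)]
    have ha' : Lin K (a ^ n) := ha.pow n
    rw [pow_succ, ih, h2, pow_add, map_mul]
    calc scal K V (c ^ (n * (n - 1) / 2)) * (a ^ n * b ^ n) * (a * b)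
        = scal K V (c ^ (n * (n - 1) / 2)) * (a ^ n * (b ^ n * a) * b) := by
          simp only [mul_assoc]
      _ = scal K V (c ^ (n * (n - 1) / 2)) * ((a ^ n * scal K V (c ^ n)) * (a * b ^ n) * b) := by
          rw [h1]; simp only [mul_assoc]
      _ = _ := by
          rw [ha'.scal_comm, pow_succ a, pow_succ b]
          simp only [mul_assoc]

end Comm

namespace Heis

variable {r : ℕ} {B : Subgroup (GV V)} (hB : Heis K V r B)
include hB

theorem linb {b : GV V} (hb : b ∈ B) : Lin K b := hB.lin b hb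

theorem cc {a b : GV V} (ha : a ∈ B) (hb : b ∈ B) : ∃ c : Kˣ, CC c a b := hB.comm a ha b hb

theorem cc_pow [Nontrivial V] {a b : GV V} (ha : a ∈ B) (hb : b ∈ B) {c : Kˣ} (h : CC c a b) :
    c ^ r = 1 := by
  have h1 := h.pow_left (hB.linb ha) r
  obtain ⟨e, he⟩ := hB.pow a ha
  rw [he] at h1
  exact h1.unique (CC.scal_left (hB.linb hb) e)

/-- Elements with a common eigenvector commute. -/
theorem commute_of_eig {a b : GV V} (ha : a ∈ B) (hb : b ∈ B) {v : V} (hv : v ≠ 0)
    (h1 : Eig K a v) (h2 : Eig K b v) : a * b = b * a := by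
  obtain ⟨c, hc⟩ := hB.cc ha hb
  obtain ⟨x, hx⟩ := h1
  obtain ⟨y, hy⟩ := h2
  have h3 := hc.smul v
  rw [hx, hy, hB.linb ha, hx, hB.linb hb, hy, smul_smul, smul_smul, smul_smul] at h3
  have h4 := smul_left_injective K hv h3
  have h5 : c = 1 := by
    apply Units.ext
    have h6 : (x : K) * y ≠ 0 := mul_ne_zero x.ne_zero y.ne_zero
    have h7 : (c : K) * (x * y) = 1 * (x * y) := by
      rw [one_mul]
      linear_combination -h4
    exact mul_right_cancel₀ h6 h7
  rw [h5] at hc
  exact cc_one_iff.1 hc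

theorem exists_cc_ne {a : GV V} (ha : a ∈ B) (hns : ∀ c : Kˣ, a ≠ scal K V c) :
    ∃ b ∈ B, ∃ c : Kˣ, c ≠ 1 ∧ CC c a b := by
  by_contra hcon
  push Not at hcon
  obtain ⟨c, hc⟩ := hB.cent a ha (fun b hb => by
    obtain ⟨c, hc⟩ := hB.cc ha hb
    have : c = 1 := by
      by_contra hne
      exact hcon b hb c hne hc
    rw [this] at hc
    exact cc_one_iff.1 hc)
  exact hns c hc

end Heis

end Cfsg.Agent.H412.Tc
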