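import Cfsg.Agent.H412.Tc.HeisEig

/-!
# Groups of Heisenberg type: interface for the main case

`Good K r B x v`: `x` is a nonscalar element of order `r` fixing `v`, and the only elements of
`B` with eigenvector `v` are those of `⟨x⟩` times scalars. `PairAgree`: `cl2 A` and `A` agree
on pairs of elements of `B / Kˣ`.
-/

set_option autoImplicit false

namespace Cfsg.Agent.H412.Tc

universe u

section

variable (K : Type*) {V : Type*} [Field K] [AddCommGroup V] [Module K V]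

def Good (r : ℕ) (B : Subgroup (GV V)) (x : GV V) (v : V) : Prop :=
  x ∈ B ∧ x ^ r = 1 ∧ (∀ c : Kˣ, x ≠ scal K V c) ∧ v ≠ 0 ∧ x • v = v ∧
    ∀ b ∈ B, Eig K b v → ∃ (i : ℕ) (c : Kˣ), b = scal K V c * x ^ i

def PairAgree (A B : Subgroup (GV V)) : Prop :=
  ∀ h ∈ cl2 A, ∀ x ∈ B, ∀ y ∈ B, ∃ g ∈ A,
    (∃ c : Kˣ, g * x * g⁻¹ = scal K V c * (h * x * h⁻¹)) ∧
    (∃ c : Kˣ, g * y * g⁻¹ = scal K V c * (h * y * h⁻¹))

/-- The exceptional configuration for `r = 2`. -/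
def EData (B : Subgroup (GV V)) : Prop :=
  ∃ x ∈ B, ∃ x' ∈ B, ∃ y ∈ B, ∃ y' ∈ B, ∃ p : V, p ≠ 0 ∧ x • p = p ∧ x' • p = p ∧
    x ^ 2 = 1 ∧ x' ^ 2 = 1 ∧ x * x' = x' * x ∧ CC (-1 : Kˣ) x y ∧ x' * y = y * x' ∧
    CC (-1 : Kˣ) x' y' ∧ x * y' = y' * x ∧
    ∀ f : V, f ≠ 0 → x • f = f → x' • f = f →
      (∀ b ∈ B, Eig K b f → ∃ (i j : ℕ) (c : Kˣ), b = scal K V c * (x ^ i * x' ^ j)) ∧
        ∃ b ∈ B, f = b • p

end

/-- A homomorphism with solvable image whose kernel centralizes `B` modulo scalars. -/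
def Concl (K : Type u) {V : Type u} [Field K] [AddCommGroup V] [Module K V]
    (A B : Subgroup (GV V)) : Prop :=
  ∃ (Q : Type u) (_ : Group Q) (φ : ↥(cl2 A) →* Q), Group.IsSolvable φ.range ∧
    ∀ h, φ h = 1 → ∀ b ∈ B, ∃ c : Kˣ, (h : GV V) * b * (h : GV V)⁻¹ = scal K V c * b

end Cfsg.Agent.H412.Tc
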