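import Cfsg.Agent.H412.Tc.HeisBasic

/-!
# Groups of Heisenberg type: eigenspace decompositions
-/

set_option autoImplicit false

namespace Cfsg.Agent.H412.Tc

variable {K V : Type*} [Field K] [AddCommGroup V] [Module K V]

theorem prime_ne_zero {r : ℕ} (hr : r.Prime) {c : Kˣ} (hc : c ≠ 1) (h : c ^ r = 1) :
    (r : K) ≠ 0 := by
  intro h0
  have h1 : ringChar K ∣ r := ringChar.dvd h0
  rcases (Nat.dvd_prime hr).1 h1 with h2 | h2
  · exact CharP.ringChar_ne_one h2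
  · have : CharP K r := ringChar.of_eq h2
    have : Fact r.Prime := ⟨hr⟩
    have h3 : ((c : K) - 1) ^ r = 0 := by
      rw [sub_pow_char, one_pow, ← Units.val_pow_eq_pow_val, h, Units.val_one, sub_self]
    have h4 : (c : K) = 1 := sub_eq_zero.1 (pow_eq_zero_iff hr.ne_zero |>.1 h3)
    exact hc (Units.ext h4)

theorem primitive {r : ℕ} (hr : r.Prime) {c : Kˣ} (hc : c ≠ 1) (h : c ^ r = 1) :
    IsPrimitiveRoot (c : K) r := by
  have h1 : orderOf c = r := by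
    rcases (Nat.dvd_prime hr).1 (orderOf_dvd_of_pow_eq_one h) with h2 | h2
    · exact absurd (orderOf_eq_one_iff.1 h2) hc
    · exact h2
  rw [← h1, IsPrimitiveRoot.coe_units_iff]
  exact IsPrimitiveRoot.orderOf c

theorem exists_pow_eq {r : ℕ} (hr : r.Prime) {c : Kˣ} (hc : c ≠ 1) (h : c ^ r = 1) {ζ : Kˣ}
    (hζ : ζ ^ r = 1) : ∃ i < r, c ^ i = ζ := by
  have : NeZero r := ⟨hr.ne_zero⟩
  have h1 : (ζ : K) ^ r = 1 := by rw [← Units.val_pow_eq_pow_val, hζ, Units.val_one]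
  obtain ⟨i, hi, h2⟩ := (primitive hr hc h).eq_pow_of_pow_eq_one h1
  exact ⟨i, hi, Units.ext (by rw [Units.val_pow_eq_pow_val, h2])⟩

/-- `r` times the projection onto the eigenspace of `y` for the eigenvalue `ζ`. -/
noncomputable def Pr (r : ℕ) (y : GV V) (ζ : Kˣ) (v : V) : V :=
  ∑ j ∈ Finset.range r, ((ζ⁻¹ ^ j : Kˣ) : K) • (y ^ j) • v

theorem Pr_mem {r : ℕ} {y : GV V} (hy : Lin K y) (hyr : y ^ r = 1) {ζ : Kˣ} (hζ : ζ ^ r = 1)
    (v : V) : y • Pr r y ζ v = (ζ : K) • Pr r y ζ v := by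
  have h1 : y • Pr r y ζ v =
      (ζ : K) • ∑ j ∈ Finset.range r, ((ζ⁻¹ ^ (j + 1) : Kˣ) : K) • (y ^ (j + 1)) • v := by
    unfold Pr
    rw [Finset.smul_sum, Finset.smul_sum]
    refine Finset.sum_congr rfl fun j _ => ?_
    rw [hy, ← mul_smul, ← pow_succ', smul_smul, ← Units.val_mul]
    congr 3
    rw [pow_succ]
    group
  rw [h1]
  congr 1
  unfold Pr
  have h2 := Finset.sum_range_succ (fun j => ((ζ⁻¹ ^ j : Kˣ) : K) • (y ^ j) • v) r
  have h3 := Finset.sum_range_succ' (fun j => ((ζ⁻¹ ^ j : Kˣ) : K) • (y ^ j) • v) r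
  rw [h2] at h3
  have h4 : ((ζ⁻¹ ^ r : Kˣ) : K) • (y ^ r) • v = ((ζ⁻¹ ^ 0 : Kˣ) : K) • (y ^ 0) • v := by
    rw [hyr, inv_pow, hζ]
    simp
  rw [h4] at h3
  exact (add_right_cancel h3).symm

theorem pow_smul_of_eig {y : GV V} (hy : Lin K y) {c : K} {v : V} (h : y • v = c • v) (n : ℕ) :
    (y ^ n) • v = c ^ n • v := by
  induction n with
  | zero => simp
  | succ n ih => rw [pow_succ', mul_smul, ih, hy, h, smul_smul, pow_succ]

theorem Pr_eig_self {r : ℕ} {y : GV V} (hy : Lin K y) {ζ : Kˣ} {v : V}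
    (h : y • v = (ζ : K) • v) : Pr r y ζ v = (r : K) • v := by
  unfold Pr
  have : ∀ j ∈ Finset.range r, ((ζ⁻¹ ^ j : Kˣ) : K) • (y ^ j) • v = v := by
    intro j _
    rw [pow_smul_of_eig hy h, smul_smul, ← Units.val_pow_eq_pow_val, ← Units.val_mul]
    simp
  rw [Finset.sum_congr rfl this]
  simp [Nat.cast_smul_eq_nsmul]

theorem Pr_eig_ne {r : ℕ} {y : GV V} (hy : Lin K y) {ζ ζ' : Kˣ} (hζ : ζ ^ r = 1)
    (hζ' : ζ' ^ r = 1) (hne : ζ ≠ ζ') {v : V} (h : y • v = (ζ' : K) • v) :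
    Pr r y ζ v = 0 := by
  unfold Pr
  have h1 : ∀ j ∈ Finset.range r,
      ((ζ⁻¹ ^ j : Kˣ) : K) • (y ^ j) • v = ((ζ⁻¹ * ζ' : Kˣ) : K) ^ j • v := by
    intro j _
    rw [pow_smul_of_eig hy h, smul_smul, Units.val_mul, mul_pow, Units.val_pow_eq_pow_val]
  rw [Finset.sum_congr rfl h1, ← Finset.sum_smul]
  have h2 : ((ζ⁻¹ * ζ' : Kˣ) : K) ≠ 1 := by
    intro h3
    apply hne
    have : ζ⁻¹ * ζ' = 1 := Units.ext h3
    rw [inv_mul_eq_one] at this
    exact this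
  have h3 : (∑ j ∈ Finset.range r, ((ζ⁻¹ * ζ' : Kˣ) : K) ^ j) = 0 := by
    have h4 := geom_sum_mul ((ζ⁻¹ * ζ' : Kˣ) : K) r
    have h5 : ((ζ⁻¹ * ζ' : Kˣ) : K) ^ r = 1 := by
      rw [← Units.val_pow_eq_pow_val, mul_pow, inv_pow, hζ, hζ']
      simp
    rw [h5, sub_self] at h4
    exact (mul_eq_zero.1 h4).resolve_right (sub_ne_zero.2 h2)
  rw [h3, zero_smul]

theorem sum_Pr {r : ℕ} {ω : Kˣ} (hω : IsPrimitiveRoot (ω : K) r) (hr : 1 < r) (y : GV V)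
    (v : V) : ∑ i ∈ Finset.range r, Pr r y (ω ^ i) v = (r : K) • v := by
  unfold Pr
  rw [Finset.sum_comm]
  have h0 : ∀ j ∈ Finset.range r,
      ∑ i ∈ Finset.range r, (((ω ^ i)⁻¹ ^ j : Kˣ) : K) • (y ^ j) • v =
        if j = 0 then (r : K) • v else 0 := by
    intro j hj
    rw [← Finset.sum_smul]
    have h1 : ∀ i ∈ Finset.range r, (((ω ^ i)⁻¹ ^ j : Kˣ) : K) = ((ω : K)⁻¹ ^ j) ^ i := by
      intro i _
      rw [Units.val_pow_eq_pow_val, Units.val_inv_eq_inv_val, Units.val_pow_eq_pow_val,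
        ← inv_pow, ← pow_mul, ← pow_mul, mul_comm]
    rw [Finset.sum_congr rfl h1]
    split_ifs with hj0
    · subst hj0
      simp
    · have h2 : (ω : K)⁻¹ ^ j ≠ 1 := by
        rw [inv_pow, ne_eq, inv_eq_one]
        intro h3
        have h4 := (hω.pow_eq_one_iff_dvd j).1 h3
        exact absurd (Nat.le_of_dvd (Nat.pos_of_ne_zero hj0) h4)
          (not_le.2 (Finset.mem_range.1 hj))
      have h3 : ∑ i ∈ Finset.range r, ((ω : K)⁻¹ ^ j) ^ i = 0 := by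
        have h4 := geom_sum_mul ((ω : K)⁻¹ ^ j) r
        have h5 : ((ω : K)⁻¹ ^ j) ^ r = 1 := by
          rw [← pow_mul, mul_comm, pow_mul, inv_pow, hω.pow_eq_one]
          simp
        rw [h5, sub_self] at h4
        exact (mul_eq_zero.1 h4).resolve_right (sub_ne_zero.2 h2)
      rw [h3, zero_smul]
  rw [Finset.sum_congr rfl h0]
  simp
  intro h; omega

/-- An operator with `y ^ r = 1` has an eigenvector among the projections of `v ≠ 0`. -/
theorem exists_Pr_ne {r : ℕ} {ω : Kˣ} (hω : IsPrimitiveRoot (ω : K) r) (hr : 1 < r)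
    (hr0 : (r : K) ≠ 0) (y : GV V) {v : V} (hv : v ≠ 0) : ∃ i < r, Pr r y (ω ^ i) v ≠ 0 := by
  by_contra hcon
  push Not at hcon
  have h1 := sum_Pr hω hr y v
  rw [Finset.sum_eq_zero (fun i hi => hcon i (Finset.mem_range.1 hi))] at h1
  rcases smul_eq_zero.1 h1.symm with h2 | h2
  · exact hr0 h2
  · exact hv h2

theorem Pr_comm {r : ℕ} {y t : GV V} (ht : Lin K t) (h : t * y = y * t) (ζ : Kˣ) (v : V) :
    t • Pr r y ζ v = Pr r y ζ (t • v) := by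
  unfold Pr
  rw [Finset.smul_sum]
  refine Finset.sum_congr rfl fun j _ => ?_
  rw [ht, ← mul_smul, ← mul_smul]
  congr 2
  have h1 : Commute t y := h
  exact (h1.pow_right j).eq

namespace Heis

variable {r : ℕ} {B : Subgroup (GV V)} (hB : Heis K V r B)
include hB

/-- If `B` is not scalar, then every nonscalar element has prescribed commutators. -/
theorem exists_cc_eq [Nontrivial V] {a : GV V} (ha : a ∈ B) (hns : ∀ c : Kˣ, a ≠ scal K V c)
    {ζ : Kˣ} (hζ : ζ ^ r = 1) : ∃ b ∈ B, CC ζ a b := by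
  obtain ⟨b, hb, c, hc1, hc⟩ := hB.exists_cc_ne ha hns
  obtain ⟨i, -, hi⟩ := exists_pow_eq hB.prime hc1 (hB.cc_pow ha hb hc) hζ
  exact ⟨b ^ i, B.pow_mem hb i, hi ▸ hc.pow_right (hB.linb hb) i⟩

theorem exists_root [Nontrivial V] {a : GV V} (ha : a ∈ B) (hns : ∀ c : Kˣ, a ≠ scal K V c) :
    ∃ ω : Kˣ, ω ≠ 1 ∧ ω ^ r = 1 := by
  obtain ⟨b, hb, c, hc1, hc⟩ := hB.exists_cc_ne ha hns
  exact ⟨c, hc1, hB.cc_pow ha hb hc⟩

end Heis

end Cfsg.Agent.H412.Tc
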